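import Cfsg.Agent.H295.War.Eng

/-!
# S2453, L5/L6: engine B (helper950)

The second factor has the characteristic polynomial `(X - c) f`, `c ≠ 1`, without fixed points; no condition on
the middle part is needed. `G2P r e m c f` : the polynomials, `rowB` : the row.
-/

set_option autoImplicit false
set_option linter.unusedSectionVars false

namespace Cfsg.Agent.H950.War.EB

open QuadraticMap Cfsg.Agent.LieClassical.OrthCore Cfsg.Agent.LieClassical.OrthTrans
  Cfsg.Agent.LieClassical.OrthFinite Matrix Cfsg.Agent.H140.OreO Polynomial Module Cfsg.Agent.H295.War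

/-- the polynomials of the second factors, `(X - c) f` of degree `m` -/
structure G2P {F : Type*} [Field F] (r e m : ℕ) (c : F) (f : F[X]) : Prop where
  monic : f.Monic
  deg : f.natDegree = m - 1
  c0 : c * f.coeff 0 * (-1) ^ (m - 1) = 1
  cop : IsCoprime ((X - C c) * f) ((X - C c) * f).reverse
  ev : ((X - C c) * f).eval 1 ≠ 0
  root : ∃ (s : F[X]) (N : ℕ), N.Coprime r ∧ (X - C c) * f ∣ s ^ (2 * e) - X ∧ (X - C c) * f ∣ s ^ N - 1

variable {F V : Type*} [Field F] [AddCommGroup V] [Module F V] {n : ℕ} {Q : QuadraticForm F V}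

theorem G2P.coeff_ne {r e m : ℕ} {c : F} {f : F[X]} (h : G2P r e m c f) : f.coeff 0 ≠ 0 := by
  intro h0
  have := h.c0
  rw [h0, mul_zero, zero_mul] at this
  exact zero_ne_one this

theorem reverse_eval_one (f : F[X]) : f.reverse.eval 1 = f.eval 1 := by
  have h2 : eval₂ (RingHom.id F) 1 (reverse f) * (1 : F) ^ f.natDegree = eval₂ (RingHom.id F) 1 f := by
    have h3 : Invertible (1 : F) := invertibleOne
    have := eval₂_reverse_mul_pow (RingHom.id F) (1 : F) f
    rwa [invOf_one] at this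
  rw [one_pow, mul_one] at h2
  exact h2

theorem G2P.copr {r e : ℕ} {c : F} {f : F[X]} (h : G2P r e n c f) {Y : GL (Fin n) F}
    (hY : (Y : Matrix (Fin n) (Fin n) F).charpoly = (Polynomial.X - C c) * f) : Cop Y (1 : V ≃ₗ[F] V) := by
  apply cop_of_charpoly
  · rw [hY]; exact un_one' h.ev
  · rw [hY]; exact un_one' (by rw [reverse_eval_one]; exact h.ev)
  · rw [hY]; exact h.cop

/-- **Engine B in the model.** -/
theorem engB_model [Finite F] [FiniteDimensional F V] {A : GL (Fin n) F} (hn : 2 ≤ n)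
    (hdet : (A : Matrix (Fin n) (Fin n) F).det = 1)
    (hns : (A : Matrix (Fin n) (Fin n) F) = 1 ∨ ∀ c : F, (A : Matrix (Fin n) (Fin n) F) ≠ c • (1 : Matrix (Fin n) (Fin n) F))
    {u₁ u₂ : M F V n ≃ₗ[F] M F V n} (hu₁ : u₁ ∈ Um n Q) (hu₂ : u₂ ∈ Up n Q) {p : F[X]} (hp : NP n p)
    {r e : ℕ} {c : F} {f : F[X]} (hf : G2P r e n c f) :
    ∃ (X Y : GL (Fin n) F), ∃ v ∈ Om (MQ n Q), ∃ v' ∈ Om (MQ n Q),
      u₁ * lev A 1 * u₂ = (v * lev X 1 * v⁻¹) * (v' * lev Y 1 * v'⁻¹) ∧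
      (X : Matrix (Fin n) (Fin n) F).charpoly = p ∧
      ((Y : Matrix (Fin n) (Fin n) F).charpoly = (Polynomial.X - C c) * f ∨
        ((Y⁻¹ : GL (Fin n) F) : Matrix (Fin n) (Fin n) F).charpoly = p) := by
  classical
  by_cases hA1 : (A : Matrix (Fin n) (Fin n) F) = 1
  · obtain ⟨X, hX⟩ := exists_matrix p hp.monic hp.coeff_ne hp.deg
    obtain ⟨v₁, -, hv₁, e₁⟩ := (hp.copr (V := V) (by omega) hX).exists_um (O Q).one_mem hu₁
    obtain ⟨v₂, -, hv₂, e₂⟩ := (hp.copr (V := V) (by omega) hX).exists_up (O Q).one_mem ((Up n Q).inv_mem hu₂)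
    refine ⟨X, X⁻¹, v₁, hv₁, v₂, hv₂, ?_, hX, Or.inr (by rw [inv_inv]; exact hX)⟩
    have hA : A = X * X⁻¹ := by rw [mul_inv_cancel]; exact Units.ext hA1
    have e3 : lev A (1 : V ≃ₗ[F] V) = lev X 1 * (lev X 1)⁻¹ := by
      rw [hA, ← lev_inv, inv_one, ← lev_mul, mul_one]
    have e4 : lev X⁻¹ (1 : V ≃ₗ[F] V) = (lev X 1)⁻¹ := by rw [← lev_inv, inv_one]
    rw [e4, ← e₁, e3]
    have e5 : v₂ * (lev X 1)⁻¹ * v₂⁻¹ = (v₂ * lev X 1 * v₂⁻¹)⁻¹ := by group
    rw [e5, ← e₂]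
    group
  · have hns' := hns.resolve_left hA1
    obtain ⟨k, rfl⟩ : ∃ k, n = k + 2 := ⟨n - 2, by omega⟩
    obtain ⟨x, y, hxy, hxp, -, c', hc', hyc⟩ := H962.PP.exists_mul (A : Matrix (Fin (k + 2)) (Fin (k + 2)) F)
      (by rw [hdet]; exact one_ne_zero) (fun d hd => hns' d (by rw [hd, smul_one_eq_diagonal]; rfl))
      hp.monic hp.deg hp.coeff_ne hf.monic (by rw [hf.deg]; rfl) hf.coeff_ne
    have hdx : x.det = 1 := det_of_charpoly hxp hp.c0
    have hdy : y.det = 1 := by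
      have := congrArg Matrix.det hxy
      rw [hdet, det_mul, hdx, one_mul] at this
      exact this.symm
    have hcc : c' = c := by
      have h1 := hdy
      rw [det_eq_sign_charpoly_coeff, hyc, mul_coeff_zero, Fintype.card_fin] at h1
      simp only [coeff_sub, coeff_X_zero, coeff_C_zero, zero_sub] at h1
      have h2 := hf.c0
      have h3 : (k + 2 - 1) = k + 1 := rfl
      rw [h3] at h2
      have h4 : c' * (f.coeff 0 * (-1) ^ (k + 1)) = 1 := by linear_combination h1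
      have h5 : c * (f.coeff 0 * (-1) ^ (k + 1)) = 1 := by linear_combination h2
      have h6 : f.coeff 0 * (-1) ^ (k + 1) ≠ 0 := fun h0 => by
        rw [h0, mul_zero] at h5
        exact zero_ne_one h5
      exact mul_right_cancel₀ h6 (h4.trans h5.symm)
    subst hcc
    let X : GL (Fin (k + 2)) F := Matrix.GeneralLinearGroup.mkOfDetNeZero x (by rw [hdx]; exact one_ne_zero)
    let Y : GL (Fin (k + 2)) F := Matrix.GeneralLinearGroup.mkOfDetNeZero y (by rw [hdy]; exact one_ne_zero)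
    have hX : (X : Matrix (Fin (k + 2)) (Fin (k + 2)) F).charpoly = p := hxp
    have hY : (Y : Matrix (Fin (k + 2)) (Fin (k + 2)) F).charpoly = (Polynomial.X - C c') * f := hyc
    obtain ⟨v₁, -, hv₁, e₁⟩ := (hp.copr (V := V) (by omega) hX).exists_um (O Q).one_mem hu₁
    obtain ⟨v₂, -, hv₂, e₂⟩ := (hf.copr (V := V) hY).exists_up (O Q).one_mem
      (lev_conj_Up (A := Y) (h := 1) (O Q).one_mem hu₂)
    refine ⟨X, Y, v₁, hv₁, v₂, hv₂, ?_, hX, Or.inl hY⟩
    have hAXY : A = X * Y := Units.ext hxy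
    rw [← e₁, ← e₂]
    have e3 : lev A (1 : V ≃ₗ[F] V) = lev X 1 * lev Y 1 := by
      rw [hAXY, ← lev_mul, mul_one]
    rw [e3]
    group

/-- **Engine B.** -/
theorem rowB [Finite F] [FiniteDimensional F V] (hQ : Nondeg Q) {m : ℕ} (hm : 3 ≤ m)
    {g : V ≃ₗ[F] V} (hg : g ∈ O Q) (hB : BaseCorner m Q g) {r e : ℕ} (he : 1 ≤ e) {p : F[X]}
    (hp : GP r e m p) {c : F} {f : F[X]} (hf : G2P r e m c f) :
    ∃ x ∈ Om Q, ∃ y ∈ Om Q, g = x ^ e * y ^ e ∧ (orderOf x).Coprime r ∧ (orderOf y).Coprime r := by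
  obtain ⟨w, w', hfr, hS, hdet, hA⟩ := hB
  obtain ⟨u₁, hu₁, g₁, hg₁, u₂, hu₂, e0⟩ := H141.SpinFacts.exists_decomp hfr hg
    (Matrix.GeneralLinearGroup.mkOfDetNeZero (corner Q g w w') (by rw [hdet]; exact one_ne_zero)) rfl
  have h1 := (H141.SpinFacts.schurOne_iff hfr hu₁ hu₂ e0).1 hS
  subst h1
  obtain ⟨X, Y, v, hv, v', hv', e', hX, hY⟩ := engB_model
    (A := Matrix.GeneralLinearGroup.mkOfDetNeZero (corner Q g w w') (by rw [hdet]; exact one_ne_zero)) (by omega) hdet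
    (hA.imp id And.left) hu₁ hu₂ hp.np hf
  have h : autE hfr.toModel g = (v * lev X 1 * v⁻¹) * (v' * lev Y 1 * v'⁻¹) := e0.trans e'
  have hQ1 := hfr.nondeg_res hQ
  have hG : Good (MQ m (res Q w w')) := by
    apply good_of_finite (nondeg_MQ hQ1)
    rw [← hfr.toModel.finrank_eq]
    have := hfr.finrank_perp
    omega
  have he' : ∀ v, MQ m (res Q w w') (hfr.toModel v) = Q v := hfr.MQ_toModel
  have h1 : EP r e (Om (MQ m (res Q w w'))) (v * lev X 1 * v⁻¹) := (hp.ep hG he (by omega) hX).conj hv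
  have h2 : EP r e (Om (MQ m (res Q w w'))) (v' * lev Y 1 * v'⁻¹) := by
    refine EP.conj ?_ hv'
    rcases hY with hY | hY
    · obtain ⟨s, N, hN, r1, r2⟩ := hf.root
      exact ep_lev hG (by omega) he hN (by rwa [hY]) (by rwa [hY])
    · have h3 := (hp.ep hG he (by omega) hY).inv
      have h4 : (lev Y⁻¹ (1 : perp Q w w' ≃ₗ[F] perp Q w w'))⁻¹ = lev Y 1 := by
        rw [← lev_inv, inv_inv, inv_one]
      rwa [h4] at h3
  obtain ⟨x, hx, ex, ox⟩ := h1
  obtain ⟨y, hy, ey, oy⟩ := h2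
  have horder : ∀ z, orderOf ((autE hfr.toModel).symm z) = orderOf z := fun z =>
    orderOf_injective (autE hfr.toModel).symm.toMonoidHom (autE hfr.toModel).symm.injective z
  refine ⟨(autE hfr.toModel).symm x, ?_, (autE hfr.toModel).symm y, ?_, ?_, ?_, ?_⟩
  · rw [← autE_mem_Om he', MulEquiv.apply_symm_apply]; exact hx
  · rw [← autE_mem_Om he', MulEquiv.apply_symm_apply]; exact hy
  · apply (autE hfr.toModel).injective
    rw [h, ex, ey, map_mul, map_pow, map_pow, MulEquiv.apply_symm_apply, MulEquiv.apply_symm_apply]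
  · rw [horder]; exact ox
  · rw [horder]; exact oy

end Cfsg.Agent.H950.War.EB
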