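import Cfsg.Agent.H950.War.EBase
import Cfsg.Agent.H544.War.Gp

/-!
# S2453, L5/L6: existence of the polynomials of engine B (helper950)
-/

set_option autoImplicit false

namespace Cfsg.Agent.H950.War.EB

open Polynomial Cfsg.Agent.H295.War Cfsg.Agent.H544.War

theorem irr_eval_ne {F : Type*} [Field F] {f : F[X]} (hi : Irreducible f) (hd : 2 ≤ f.natDegree) (x : F) :
    f.eval x ≠ 0 := by
  intro hx
  have h1 : X - C x ∣ f := dvd_iff_isRoot.2 hx
  have h2 := ((irreducible_X_sub_C x).dvd_irreducible_iff_associated hi).1 h1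
  have h3 := natDegree_eq_of_degree_eq (degree_eq_degree_of_associated h2)
  rw [natDegree_X_sub_C] at h3
  omega

theorem reverse_X_sub_C {F : Type*} [Field F] {c : F} (_hc : c ≠ 0) : (X - C c).reverse = 1 - C c * X := by
  have h := reverse_add_C (X : F[X]) (-c)
  rw [C_neg, ← sub_eq_add_neg] at h
  rw [h]
  have h1 : (X : F[X]).reverse = 1 := by
    have := reverse_mul_X (1 : F[X])
    rw [one_mul] at this
    rw [this]
    exact reverse_C 1
  rw [h1, natDegree_X, pow_one]
  ring

theorem cop_all {F : Type*} [Field F] {c : F} {f : F[X]} (hc0 : c ≠ 0) (hc : c ^ 2 ≠ 1) (hi : Irreducible f)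
    (hd : 2 ≤ f.natDegree) (hf : IsCoprime f f.reverse) :
    IsCoprime ((X - C c) * f) ((X - C c) * f).reverse := by
  have hr : ∀ x : F, x ≠ 0 → f.reverse.eval x ≠ 0 := by
    intro x hx h0
    have : Invertible x⁻¹ := invertibleOfNonzero (inv_ne_zero hx)
    have h2 := (eval₂_reverse_eq_zero_iff (RingHom.id F) x⁻¹ f).1
    rw [invOf_eq_inv, inv_inv] at h2
    exact irr_eval_ne hi hd x⁻¹ (h2 h0)
  rw [reverse_mul_of_domain, reverse_X_sub_C hc0]
  have hL : (1 - C c * X : F[X]) ≠ 0 := by
    intro h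
    have := congrArg (eval 0) h
    simp at this
  refine IsCoprime.mul_left (IsCoprime.mul_right ?_ ?_) (IsCoprime.mul_right ?_ hf)
  · rw [(irreducible_X_sub_C c).coprime_iff_not_dvd, dvd_iff_isRoot]
    intro h
    apply hc
    have : eval c (1 - C c * X) = 0 := h
    simp only [eval_sub, eval_one, eval_mul, eval_C, eval_X] at this
    rw [pow_two]
    exact (sub_eq_zero.1 this).symm
  · rw [(irreducible_X_sub_C c).coprime_iff_not_dvd, dvd_iff_isRoot]
    exact hr c hc0
  · rw [hi.coprime_iff_not_dvd]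
    intro h
    have h1 := natDegree_le_of_dvd h hL
    have h2 : (1 - C c * X : F[X]).natDegree ≤ 1 := by
      refine (natDegree_sub_le _ _).trans ?_
      rw [natDegree_one, Nat.zero_max]
      exact (natDegree_C_mul_le c X).trans natDegree_X_le
    omega

theorem exists_g2p {F : Type*} [Field F] [Finite F] {p : ℕ} [Fact p.Prime] [CharP F p] {e m : ℕ} (hm : 3 ≤ m)
    (he : 1 ≤ e) (hA : ¬ (Nat.card F - 1) ∣ 4 * e)
    (h : 2 * e * (Nat.card F ^ ((m - 1) / 2) + 1) < Nat.card F ^ (m - 1) - 1) :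
    ∃ (c : F) (f : F[X]), G2P p e m c f := by
  classical
  obtain ⟨d, rfl⟩ : ∃ d, m = d + 1 := ⟨m - 1, by omega⟩
  rw [Nat.add_sub_cancel] at h
  have : NeZero d := ⟨by omega⟩
  have _ : Fintype F := Fintype.ofFinite F
  -- the field
  obtain ⟨K, _, _, _, _, hK, hcK⟩ : ∃ (K : Type) (_ : Field K) (_ : Algebra F K) (_ : FiniteDimensional F K)
      (_ : Finite K), Module.finrank F K = d ∧ Nat.card K = Nat.card F ^ d :=
    ⟨FiniteField.Extension F p d, inferInstance, inferInstance, inferInstance, inferInstance,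
      FiniteField.finrank_extension F p d, FiniteField.natCard_extension F p d⟩
  have _ : Fintype K := Fintype.ofFinite K
  set q := Nat.card F with hq
  have hq1 : 1 < q := Finite.one_lt_card
  set n := (q ^ d - 1) / (q - 1) with hn
  have hdvd : q - 1 ∣ q ^ d - 1 := by simpa using Nat.sub_dvd_pow_sub_pow q 1 d
  have hn' : n * (q - 1) = q ^ d - 1 := Nat.div_mul_cancel hdvd
  have hn0 : 0 < n := by
    rcases Nat.eq_zero_or_pos n with h0 | h0
    · rw [h0, zero_mul] at hn'
      have : 1 < q ^ d := Nat.one_lt_pow (by omega) hq1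
      omega
    · exact h0
  obtain ⟨u, hu⟩ := IsCyclic.exists_generator (α := Kˣ)
  have hord : orderOf u = q ^ d - 1 := by
    rw [orderOf_eq_card_of_forall_mem_zpowers hu, Nat.card_units, hcK]
  obtain ⟨z, hz⟩ : ∃ z : Kˣ, z = u ^ (2 * e) := ⟨_, rfl⟩
  have key : ∀ t : ℕ, z ^ t = 1 → q ^ d - 1 ∣ 2 * e * t := by
    intro t ht
    rw [← hord]
    apply orderOf_dvd_of_pow_eq_one
    rw [pow_mul, ← hz]; exact ht
  have hle : ∀ j, j ≤ d / 2 → q ^ j ≤ q ^ (d / 2) := fun j hj => Nat.pow_le_pow_right (by omega) hj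
  have kp : ∀ j, j ≤ d / 2 → z ^ (q ^ j + 1) ≠ 1 := fun j hj h0 => by
    have h1 := Nat.le_of_dvd (Nat.mul_pos (by omega) (by omega)) (key _ h0)
    have h2 : 2 * e * (q ^ j + 1) ≤ 2 * e * (q ^ (d / 2) + 1) :=
      Nat.mul_le_mul_left _ (Nat.add_le_add_right (hle j hj) 1)
    omega
  have km : ∀ j, 0 < j → j ≤ d / 2 → z ^ (q ^ j - 1) ≠ 1 := fun j hj0 hj h0 => by
    have h3 : 1 < q ^ j := Nat.one_lt_pow hj0.ne' hq1
    have h1 := Nat.le_of_dvd (Nat.mul_pos (by omega) (by omega)) (key _ h0)
    have h2 : 2 * e * (q ^ j - 1) ≤ 2 * e * (q ^ (d / 2) + 1) :=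
      Nat.mul_le_mul_left _ (by have := hle j hj; omega)
    omega
  have hint : IsIntegral F (z : K) := Algebra.IsIntegral.isIntegral _
  -- `z` generates `K`
  have hadj : IntermediateField.adjoin F {(z : K)} = ⊤ := by
    by_contra hne
    have hmul : Module.finrank F (IntermediateField.adjoin F {(z : K)}) *
        Module.finrank (IntermediateField.adjoin F {(z : K)}) K = d := by rw [Module.finrank_mul_finrank, hK]
    have h1 : Module.finrank (IntermediateField.adjoin F {(z : K)}) K ≠ 1 := fun h1 =>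
      hne (IntermediateField.finrank_eq_one_iff_eq_top.1 h1)
    have h0 : 0 < Module.finrank (IntermediateField.adjoin F {(z : K)}) K := Module.finrank_pos
    have h0' : 0 < Module.finrank F (IntermediateField.adjoin F {(z : K)}) := Module.finrank_pos
    have hj : Module.finrank F (IntermediateField.adjoin F {(z : K)}) ≤ d / 2 := by
      rw [Nat.le_div_iff_mul_le (by norm_num)]
      calc _ ≤ Module.finrank F (IntermediateField.adjoin F {(z : K)}) *
          Module.finrank (IntermediateField.adjoin F {(z : K)}) K := Nat.mul_le_mul_left _ (by omega)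
        _ = d := hmul
    have hcL : Nat.card (IntermediateField.adjoin F {(z : K)}) =
        q ^ Module.finrank F (IntermediateField.adjoin F {(z : K)}) := Module.natCard_eq_pow_finrank
    have _ : Fintype (IntermediateField.adjoin F {(z : K)}) := Fintype.ofFinite _
    have hzz : (z : K) ^ (q ^ Module.finrank F (IntermediateField.adjoin F {(z : K)})) = z := by
      have h2 := FiniteField.pow_card (⟨z, IntermediateField.mem_adjoin_simple_self F (z : K)⟩ :
        IntermediateField.adjoin F {(z : K)})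
      rw [← Nat.card_eq_fintype_card, hcL] at h2
      exact congrArg Subtype.val h2
    apply km _ h0' hj
    have h3 : 0 < q ^ Module.finrank F (IntermediateField.adjoin F {(z : K)}) := pow_pos (by omega) _
    have h4 : z ^ (q ^ Module.finrank F (IntermediateField.adjoin F {(z : K)}) - 1) * z = 1 * z := by
      rw [← pow_succ, Nat.sub_add_cancel h3, one_mul]
      apply Units.ext
      rw [Units.val_pow_eq_pow_val, hzz]
    exact mul_right_cancel h4
  have hadj' : Algebra.adjoin F {(z : K)} = ⊤ := by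
    rw [← IntermediateField.adjoin_simple_toSubalgebra_of_isAlgebraic hint.isAlgebraic, hadj]
    rfl
  have hdeg : (minpoly F (z : K)).natDegree = d := by
    rw [← IntermediateField.adjoin.finrank hint, hadj, IntermediateField.finrank_top', hK]
  have hroot : aeval (z : K) (minpoly F (z : K)) = 0 := minpoly.aeval _ _
  have hirr : Irreducible (minpoly F (z : K)) := minpoly.irreducible hint
  -- norms
  have hnpow : ∀ x : K, algebraMap F K (Algebra.norm F x) = x ^ n := by
    intro x
    rw [FiniteField.algebraMap_norm_eq_pow, hcK]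
  obtain ⟨g, hg⟩ : ∃ g : F, g = (Algebra.norm F (u : K))⁻¹ := ⟨_, rfl⟩
  obtain ⟨c, hc⟩ : ∃ c : F, c = (Algebra.norm F (z : K))⁻¹ := ⟨_, rfl⟩
  have hN0 : Algebra.norm F (z : K) ≠ 0 := Algebra.norm_ne_zero_iff.2 z.ne_zero
  have hNu0 : Algebra.norm F (u : K) ≠ 0 := Algebra.norm_ne_zero_iff.2 u.ne_zero
  have hc0 : c ≠ 0 := by rw [hc]; exact inv_ne_zero hN0
  have hgc : g ^ (2 * e) = c := by
    rw [hg, hc, hz, inv_pow, Units.val_pow_eq_pow_val, map_pow]
  have hg0 : g ≠ 0 := by rw [hg]; exact inv_ne_zero hNu0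
  have hgN : g ^ (q ^ d - 1) = 1 := by
    have h1 : g ^ (q - 1) = 1 := by
      have := FiniteField.pow_card_sub_one_eq_one g hg0
      rwa [← Nat.card_eq_fintype_card] at this
    obtain ⟨t, ht⟩ := hdvd
    rw [ht, pow_mul, h1, one_pow]
  have hcsq : c ^ 2 ≠ 1 := by
    intro h0
    apply hA
    have h1 : (Algebra.norm F (z : K)) ^ 2 = 1 := by
      rw [hc, inv_pow, inv_eq_one] at h0
      exact h0
    have h2 : z ^ (n * 2) = 1 := by
      apply Units.ext
      have h3 := congrArg (algebraMap F K) h1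
      rw [map_pow, hnpow, map_one, ← pow_mul] at h3
      rw [Units.val_pow_eq_pow_val, h3, Units.val_one]
    have h3 := key _ h2
    rw [← hn', show 2 * e * (n * 2) = n * (4 * e) by ring] at h3
    exact Nat.dvd_of_mul_dvd_mul_left hn0 h3
  have hc1 : c ≠ 1 := fun h1 => hcsq (by rw [h1, one_pow])
  have hcoe : (-1) ^ d * (minpoly F (z : K)).coeff 0 = Algebra.norm F (z : K) := by
    have h1 := Algebra.PowerBasis.norm_gen_eq_coeff_zero_minpoly (PowerBasis.ofAdjoinEqTop hint hadj')
    rw [PowerBasis.ofAdjoinEqTop_gen, PowerBasis.ofAdjoinEqTop_dim, hdeg] at h1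
    exact h1.symm
  -- prime to the reciprocal
  have hcop : IsCoprime (minpoly F (z : K)) (minpoly F (z : K)).reverse := by
    refine isCoprime_of_root hirr hroot (aeval_reverse_ne z.ne_zero ?_)
    intro h0
    have hconj : IsConjRoot F (z : K) ((z : K)⁻¹) :=
      minpoly.eq_of_irreducible_of_monic hirr h0 (minpoly.monic hint)
    rw [isConjRoot_iff_exists_algEquiv] at hconj
    obtain ⟨σ, hσ⟩ := hconj
    obtain ⟨⟨j, hj⟩, hσj⟩ := (FiniteField.bijective_frobeniusAlgEquivOfAlgebraic_pow F K).2 σ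
    rw [hK] at hj
    have h9 : σ ((z : K)⁻¹) = ((z : K)⁻¹) ^ (q ^ j) := by
      rw [← hσj]
      show (FiniteField.frobeniusAlgEquivOfAlgebraic F K ^ j) ((z : K)⁻¹) = _
      rw [AlgEquiv.coe_pow, FiniteField.coe_frobeniusAlgEquivOfAlgebraic_iterate, ← Nat.card_eq_fintype_card]
    have h1 : z⁻¹ ^ (q ^ j) = z := by
      apply Units.ext
      rw [Units.val_pow_eq_pow_val, Units.val_inv_eq_inv_val, ← h9, hσ]
    have h2 : z ^ (q ^ j + 1) = 1 := by
      rw [inv_pow] at h1
      rw [pow_succ]
      nth_rewrite 2 [← h1]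
      rw [mul_inv_cancel]
    by_cases hj2 : j ≤ d / 2
    · exact kp j hj2 h2
    · -- raise to the power `q ^ (d - j)`
      apply kp (d - j) (by omega)
      have h3 : z ^ (q ^ d) = z := by
        have h4 : 1 < q ^ d := Nat.one_lt_pow (by omega) hq1
        have h5 : z ^ (q ^ d - 1) = 1 := by
          have := pow_card_eq_one' (x := z)
          rwa [Nat.card_units, hcK] at this
        rw [show q ^ d = q ^ d - 1 + 1 by omega, pow_succ, h5, one_mul]
      have h4 : (z ^ (q ^ j + 1)) ^ (q ^ (d - j)) = z ^ (q ^ d) * z ^ (q ^ (d - j)) := by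
        rw [← pow_mul, add_mul, one_mul, ← pow_add q, show j + (d - j) = d by omega, pow_add]
      rw [h2, one_pow, h3] at h4
      rw [pow_succ, mul_comm, ← h4]
  have hN : (q ^ d - 1).Coprime p := by
    have hpp : p.Prime := Fact.out
    rw [Nat.coprime_comm, hpp.coprime_iff_not_dvd]
    intro h2
    have h3 : p ∣ q := by
      rw [hq, Nat.card_eq_fintype_card]
      have := FiniteField.cast_card_eq_zero F
      exact (CharP.cast_eq_zero_iff F p _).1 this
    have h4 : p ∣ q ^ d := h3.trans (dvd_pow_self q (by omega))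
    have h5 : 1 < q ^ d := Nat.one_lt_pow (by omega) hq1
    have h6 : p ∣ 1 := by
      have := Nat.dvd_sub h4 h2
      rwa [show q ^ d - (q ^ d - 1) = 1 by omega] at this
    exact hpp.one_lt.ne' (Nat.dvd_one.1 h6)
  refine ⟨c, minpoly F (z : K), minpoly.monic hint, by rw [hdeg]; rfl, ?_, ?_, ?_, ?_⟩
  · rw [Nat.add_sub_cancel, mul_assoc, mul_comm (coeff _ 0), hcoe, hc, inv_mul_cancel₀ hN0]
  · exact cop_all hc0 hcsq hirr (by rw [hdeg]; omega) hcop
  · rw [eval_mul, eval_sub, eval_X, eval_C]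
    exact mul_ne_zero (sub_ne_zero.2 (Ne.symm hc1)) (irr_eval_ne hirr (by rw [hdeg]; omega) 1)
  · -- the root
    have h1 : (u : K) ∈ Algebra.adjoin F {(z : K)} := by rw [hadj']; trivial
    rw [Algebra.adjoin_singleton_eq_range_aeval] at h1
    obtain ⟨r, hr⟩ := h1
    have hr' : aeval (z : K) r = u := hr
    have r1 : minpoly F (z : K) ∣ r ^ (2 * e) - X := by
      apply minpoly.dvd
      rw [map_sub, map_pow, aeval_X, hr', hz, Units.val_pow_eq_pow_val, sub_self]
    have r2 : minpoly F (z : K) ∣ r ^ (q ^ d - 1) - 1 := by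
      apply minpoly.dvd
      rw [map_sub, map_pow, map_one, hr', ← Units.val_pow_eq_pow_val]
      have := pow_card_eq_one' (x := u)
      rw [Nat.card_units, hcK] at this
      rw [this, Units.val_one, sub_self]
    have hco : IsCoprime (X - C c) (minpoly F (z : K)) :=
      (irreducible_X_sub_C c).coprime_iff_not_dvd.2
        (fun h' => irr_eval_ne hirr (by rw [hdeg]; omega) c (dvd_iff_isRoot.1 h'))
    obtain ⟨a, b, hab⟩ := id hco
    obtain ⟨s, hs⟩ : ∃ s, s = r * (a * (X - C c)) + C g * (b * minpoly F (z : K)) := ⟨_, rfl⟩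
    have hs1 : X - C c ∣ s - C g := ⟨r * a - C g * a, by
      have : s - C g = r * (a * (X - C c)) + C g * (b * minpoly F (z : K)) -
          C g * (a * (X - C c) + b * minpoly F (z : K)) := by rw [hs, hab, mul_one]
      rw [this]; ring⟩
    have hs2 : minpoly F (z : K) ∣ s - r := ⟨C g * b - r * b, by
      have : s - r = r * (a * (X - C c)) + C g * (b * minpoly F (z : K)) -
          r * (a * (X - C c) + b * minpoly F (z : K)) := by rw [hs, hab, mul_one]
      rw [this]; ring⟩
    have hpow : ∀ (P u v : F[X]) (k : ℕ), P ∣ u - v → P ∣ u ^ k - v ^ k := fun P u v k h' =>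
      h'.trans (sub_dvd_pow_sub_pow u v k)
    refine ⟨s, q ^ d - 1, hN, ?_, ?_⟩
    · refine hco.mul_dvd ?_ ?_
      · have h3 := hpow _ _ _ (2 * e) hs1
        rw [← C_pow, hgc] at h3
        have h4 : s ^ (2 * e) - X = (s ^ (2 * e) - C c) - (X - C c) := by ring
        rw [h4]
        exact dvd_sub h3 dvd_rfl
      · have h3 := hpow _ _ _ (2 * e) hs2
        have h4 : s ^ (2 * e) - X = (s ^ (2 * e) - r ^ (2 * e)) + (r ^ (2 * e) - X) := by ring
        rw [h4]
        exact dvd_add h3 r1
    · refine hco.mul_dvd ?_ ?_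
      · have h3 := hpow _ _ _ (q ^ d - 1) hs1
        rwa [← C_pow, hgN, C_1] at h3
      · have h3 := hpow _ _ _ (q ^ d - 1) hs2
        have h4 : s ^ (q ^ d - 1) - 1 = (s ^ (q ^ d - 1) - r ^ (q ^ d - 1)) + (r ^ (q ^ d - 1) - 1) := by ring
        rw [h4]
        exact dvd_add h3 r2

end Cfsg.Agent.H950.War.EB
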